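import Cfsg.Agent.Sig2.Constr
import Cfsg.Agent.S1246
import Mathlib.GroupTheory.FixedPointFree

/-!
A group without components containing an involution whose centralizer has characteristic 2 is
2-constrained.
-/

set_option autoImplicit false

namespace Cfsg.Lib.Sig2

open Cfsg.Lib Cfsg.Lib.Trans Cfsg.Lib.Local Cfsg.Lib.Bender Cfsg.Agent Subgroup

variable {G : Type*} [Group G] [Finite G]

theorem inverts_of_charP {z : G} (hz : z * z = 1) (hc : CharP 2 (centralizer ({z} : Set G)))
    {x : G} (hx : x ∈ pPrimeCore 2 G) : z * x * z⁻¹ = x⁻¹ := by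
  have h0 : ppCoreOf 2 (centralizer ({z} : Set G)) = ⊥ :=
    ppCoreOf_eq_bot_iff.2 (Solv.pPrimeCore_eq_bot_of_centralizer_le (charP_iff.1 hc))
  have h1 : pPrimeCore 2 G ⊓ centralizer {z} = ⊥ := by
    have := ppCoreOf_inf_le (p := 2) (le_top : centralizer ({z} : Set G) ≤ ⊤)
    rwa [h0, ppCoreOf_top, le_bot_iff] at this
  have h2 : MonoidHom.FixedPointFree (MulAut.conjNormal (H := pPrimeCore 2 G) z) := by
    intro a ha
    have h3 : z * a * z⁻¹ = a := congrArg Subtype.val ha
    have h4 : (a : G) ∈ pPrimeCore 2 G ⊓ centralizer {z} :=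
      ⟨a.2, mem_centralizer_singleton_iff.2 (by rw [← h3, mul_assoc, mul_assoc, inv_mul_cancel,
        mul_one, h3])⟩
    rw [h1] at h4
    exact Subtype.ext h4
  have h3 := h2.coe_eq_inv_of_involutive (fun a => Subtype.ext (by
    change z * (z * a * z⁻¹) * z⁻¹ = a
    calc _ = (z * z) * a * (z * z)⁻¹ := by group
      _ = a := by rw [hz]; group))
  exact congrArg Subtype.val (congrFun h3 ⟨x, hx⟩)

theorem isPConstrained_of_layer_eq_bot (hE : layer G = ⊥) {z : G} (hz : z * z = 1)
    (hc : CharP 2 (centralizer ({z} : Set G))) : IsPConstrained 2 G := by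
  rw [isPConstrained_iff_pLayer_eq_bot, pLayer_eq_bot_iff_forall]
  intro K hK
  rcases IsPComponent.le_commutator_or_commutator_le hK (zpowers z) with h | h
  · have h1 : ⁅K, zpowers z⁆ ≤ centralizer (pPrimeCore 2 G : Set G) := by
      rw [commutator_le]
      intro k _ w hw x hx
      rcases mem_zpowers_of_mul_self hz hw with rfl | rfl
      · simp
      · have h2 := inverts_of_charP hz hc ((pPrimeCore_normal 2 G).conj_mem _ (inv_mem hx) k⁻¹)
        have h3 := inverts_of_charP hz hc hx
        have h4 : w⁻¹ = w := inv_eq_of_mul_eq_one_right hz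
        rw [commutatorElement_def, h4]
        rw [h4] at h2 h3
        calc x * (k * w * k⁻¹ * w) = k * (k⁻¹ * x⁻¹ * k⁻¹⁻¹)⁻¹ * w * k⁻¹ * w := by group
          _ = k * w * k⁻¹ * x⁻¹ * k * (w * w) * k⁻¹ * w := by rw [← h2]; group
          _ = k * w * k⁻¹ * (w * x * w) * w := by rw [hz, h3]; group
          _ = k * w * k⁻¹ * w * x * (w * w) := by group
          _ = _ := by rw [hz, mul_one]
    have h2 := IsPComponent.isComponent_of_commutator_eq_bot hK
      (commutator_eq_bot_iff_le_centralizer.2 (h.trans h1))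
    exact layer_eq_bot_iff_not_hasComponent.1 hE ⟨K, h2⟩
  · have hp := (El.zpowers hz).isPGroup
    have h1 := map_pLayerOf_centralizer hp (pPrimeCore 2 G) (Solv.coprime_card_pPrimeCore 2 G)
    rw [Trans.centralizer_zpowers_eq, pLayerOf_eq_bot_iff.2 (isPConstrained_iff_pLayer_eq_bot.1
      (Solv.isPConstrained_of_centralizer_pCore_le (charP_iff.1 hc))), Subgroup.map_bot] at h1
    have hne := IsPComponent.map_ne_bot_of_coprime hK (QuotientGroup.mk' (pPrimeCore 2 G))
      (by rw [QuotientGroup.ker_mk']; exact Solv.coprime_card_pPrimeCore 2 G)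
    have h2 := IsPComponent.map_of_surjective hK _ (QuotientGroup.mk'_surjective _) hne
    have h3 := IsPComponentOf.le_pLayerOf (IsPComponent.isPComponentOf h2
      (commutator_eq_bot_iff_le_centralizer.1 (commutator_map_mk'_eq_bot h)))
    rw [← h1, le_bot_iff] at h3
    exact hne h3

theorem isPConstrained_centralizer {y z : G} (hy : y * y = 1) (hz : z * z = 1)
    (hyz : y * z = z * y) (hE : layer (centralizer ({y} : Set G)) = ⊥)
    (hc : CharP 2 (centralizer ({z} : Set G))) : IsPConstrained 2 (centralizer ({y} : Set G)) := by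
  have hzy : z ∈ centralizer ({y} : Set G) := mem_centralizer_singleton_iff.2 hyz.symm
  refine isPConstrained_of_layer_eq_bot hE (z := ⟨z, hzy⟩) (Subtype.ext hz) ?_
  have hV : El (zpowers y ⊔ zpowers z) := (El.zpowers hy).sup (El.zpowers hz) fun a ha b hb => by
    rcases mem_zpowers_of_mul_self hy ha with rfl | rfl <;>
      rcases mem_zpowers_of_mul_self hz hb with rfl | rfl <;> simp [hyz]
  rw [← Trans.centralizer_zpowers_eq] at hc
  have h1 := S1246.charP_centralizer_mono hV.isPGroup _ le_sup_right hc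
  rw [centralizer_sup_eq, Trans.centralizer_zpowers_eq, Trans.centralizer_zpowers_eq,
    ← charP_subgroupOf_iff inf_le_left, inf_subgroupOf_left] at h1
  rwa [← centralizer_singleton_subgroupOf]

end Cfsg.Lib.Sig2
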